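import Mathlib
import Cfsg.Agent.Lib.Helper61.QB.Defs

/-! Farm S4125 (helper61), piece X4o. -/

set_option autoImplicit false

namespace Cfsg.Agent.Lib.Helper4.QB

open Cfsg.Agent.Lib.Helper61.QB

universe u

variable {q p : ℕ} [Fact q.Prime] [Fact p.Prime] {V : Type u} [AddCommGroup V] [Module (ZMod q) V]
  [Finite V]

/-- a permutation of order `p` of `Fin p` is transitive. -/
theorem exists_pow_of_order (σ : Equiv.Perm (Fin p)) (hσ : orderOf σ = p) (i j : Fin p) :
    ∃ n : ℕ, (σ ^ n) i = j := by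
  have hp : p.Prime := Fact.out
  have hc : σ.IsCycle := Equiv.Perm.isCycle_of_prime_order' (hσ.symm ▸ hp) (by
    rw [hσ, Fintype.card_fin]
    have := hp.pos
    omega)
  have hs : σ.support = Finset.univ := by
    apply Finset.eq_univ_of_card
    rw [← hc.orderOf, hσ, Fintype.card_fin]
  have hm : ∀ x : Fin p, σ x ≠ x := fun x => by
    have : x ∈ σ.support := hs ▸ Finset.mem_univ x
    exact Equiv.Perm.mem_support.1 this
  exact hc.exists_pow_eq (hm i) (hm j)

/-- [X4o] -/
theorem blocks_ne [Nontrivial V] {P : Subgroup (V ≃ₗ[ZMod q] V)} (W : Fin p → Submodule (ZMod q) V)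
    (hW : Blocks p P W) : (∀ i, W i ≠ ⊥ ∧ W i ≠ ⊤) ∧ Function.Injective W := by
  obtain ⟨hsup, hind, -, π, -, σ, hσ, hmap⟩ := hW
  have hp : p.Prime := Fact.out
  have hbot : ∀ i, W i ≠ ⊥ := by
    intro i hi
    have h1 : ∀ n : ℕ, W ((σ ^ n) i) = ⊥ := by
      intro n
      induction n with
      | zero => simpa using hi
      | succ n ih =>
        rw [pow_succ', Equiv.Perm.mul_apply, ← hmap, ih, Submodule.map_bot]
    have h2 : ∀ j, W j = ⊥ := by
      intro j
      obtain ⟨n, hn⟩ := exists_pow_of_order σ hσ i j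
      rw [← hn]
      exact h1 n
    have h3 : iSup W = ⊥ := by simp [h2]
    rw [h3] at hsup
    exact bot_ne_top hsup
  have hdis : ∀ i j, i ≠ j → Disjoint (W i) (W j) := fun i j hij => hind.pairwiseDisjoint hij
  refine ⟨fun i => ⟨hbot i, ?_⟩, ?_⟩
  · intro hi
    have : Nontrivial (Fin p) := Fin.nontrivial_iff_two_le.2 hp.two_le
    obtain ⟨j, hj⟩ := exists_ne i
    have := hdis i j hj.symm
    rw [hi, top_disjoint] at this
    exact hbot j this
  · intro i j hij
    by_contra hne
    have := hdis i j hne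
    rw [hij, disjoint_self] at this
    exact hbot j this

end Cfsg.Agent.Lib.Helper4.QB
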