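import Mathlib
import Cfsg.Agent.Lib.Helper61.QB.Defs
import Cfsg.Agent.Lib.Helper4.QB.X4o

/-! Farm S4125 (helper61), piece X4a. -/

set_option autoImplicit false

namespace Cfsg.Agent.Lib.Helper4.QB

open Cfsg.Agent.Lib.Helper61.QB

universe u

variable {q p : ℕ} [Fact q.Prime] [Fact p.Prime] {V : Type u} [AddCommGroup V] [Module (ZMod q) V]
  [Finite V]

omit [Fact p.Prime] [Finite V] in
/-- a vector in two different blocks vanishes; more generally a vector of `W j` which is a sum of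
vectors from other blocks vanishes. -/
theorem eq_zero_of_indep {W : Fin p → Submodule (ZMod q) V} (hind : iSupIndep W) {j j' j'' : Fin p}
    (h1 : j' ≠ j) (h2 : j'' ≠ j) {x y z : V} (hx : x ∈ W j) (hy : y ∈ W j') (hz : z ∈ W j'')
    (h : x = y + z) : x = 0 := by
  have hd := hind j
  have hy' : y ∈ ⨆ k, ⨆ (_ : k ≠ j), W k := (le_iSup₂_of_le j' h1 le_rfl : W j' ≤ _) hy
  have hz' : z ∈ ⨆ k, ⨆ (_ : k ≠ j), W k := (le_iSup₂_of_le j'' h2 le_rfl : W j'' ≤ _) hz
  have hx' : x ∈ ⨆ k, ⨆ (_ : k ≠ j), W k := h ▸ Submodule.add_mem _ hy' hz'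
  exact (Submodule.disjoint_def.1 hd) x hx hx'

theorem exists_le_block [Nontrivial V] {A P : Subgroup (V ≃ₗ[ZMod q] V)}
    (hs : SameOrb P A) (W : Fin p → Submodule (ZMod q) V) (hW : Blocks p P W)
    (a : V ≃ₗ[ZMod q] V) (ha : a ∈ A) (i : Fin p) :
    ∃ j, (W i).map (a : V →ₗ[ZMod q] V) ≤ W j := by
  have hne := (blocks_ne W hW).1
  obtain ⟨hsup, hind, hperm, -⟩ := hW
  have h1 : ∀ v ∈ W i, ∃ j, a v ∈ W j := by
    intro v hv
    obtain ⟨π, hπ, h⟩ := hs a ha v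
    obtain ⟨σ, hσ⟩ := hperm π hπ
    refine ⟨σ i, ?_⟩
    rw [h, ← hσ]
    exact ⟨v, hv, rfl⟩
  obtain ⟨w, hw, hw0⟩ := (Submodule.ne_bot_iff _).1 (hne i).1
  obtain ⟨j, hj⟩ := h1 w hw
  have haw : a w ≠ 0 := fun h => hw0 (by simpa using h)
  refine ⟨j, ?_⟩
  rintro _ ⟨w', hw', rfl⟩
  change a w' ∈ W j
  obtain ⟨j', hj'⟩ := h1 w' hw'
  by_cases hjj : j' = j
  · exact hjj ▸ hj'
  obtain ⟨j'', hj''⟩ := h1 (w + w') (Submodule.add_mem _ hw hw')
  rw [map_add] at hj''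
  by_cases hjj2 : j'' = j
  · -- `a w' = (a w + a w') - a w ∈ W j`
    rw [hjj2] at hj''
    have := Submodule.sub_mem _ hj'' hj
    simpa using this
  · exfalso
    apply haw
    exact eq_zero_of_indep hind hjj2 hjj hj hj'' (Submodule.neg_mem _ hj') (by abel)

theorem exists_eq_block [Nontrivial V] {A P : Subgroup (V ≃ₗ[ZMod q] V)}
    (hs : SameOrb P A) (W : Fin p → Submodule (ZMod q) V) (hW : Blocks p P W)
    (a : V ≃ₗ[ZMod q] V) (ha : a ∈ A) (i : Fin p) :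
    ∃ j, (W i).map (a : V →ₗ[ZMod q] V) = W j := by
  have hne := (blocks_ne W hW).1
  obtain ⟨j, hj⟩ := exists_le_block hs W hW a ha i
  obtain ⟨i', hi'⟩ := exists_le_block hs W hW a⁻¹ (A.inv_mem ha) j
  have h1 : W i ≤ W i' := by
    intro w hw
    have h2 : a w ∈ W j := hj ⟨w, hw, rfl⟩
    have h3 : a⁻¹ (a w) ∈ W i' := hi' ⟨a w, h2, rfl⟩
    rwa [← LinearEquiv.mul_apply, inv_mul_cancel] at h3
  have h2 : i = i' := by
    by_contra hii
    have hd : Disjoint (W i) (W i') := hW.2.1.pairwiseDisjoint hii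
    exact (hne i).1 (disjoint_self.1 (hd.mono_right h1))
  refine ⟨j, le_antisymm hj ?_⟩
  intro w hw
  refine ⟨a⁻¹ w, ?_, ?_⟩
  · rw [h2]
    exact hi' ⟨w, hw, rfl⟩
  · change a (a⁻¹ w) = w
    rw [← LinearEquiv.mul_apply, mul_inv_cancel]
    rfl

/-- [X4a] -/
theorem exists_blockHom [Nontrivial V] {A P : Subgroup (V ≃ₗ[ZMod q] V)} (hPA : P ≤ A)
    (hs : SameOrb P A) (W : Fin p → Submodule (ZMod q) V) (hW : Blocks p P W) :
    ∃ θ : A →* Equiv.Perm (Fin p), ∀ (a : A) (i : Fin p),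
      (W i).map ((a : V ≃ₗ[ZMod q] V) : V →ₗ[ZMod q] V) = W (θ a i) := by
  have hinj := (blocks_ne W hW).2
  choose f hf using fun (a : A) (i : Fin p) => exists_eq_block hs W hW a.1 a.2 i
  have hmul : ∀ (a b : A) (i : Fin p), f (a * b) i = f a (f b i) := by
    intro a b i
    apply hinj
    rw [← hf, ← hf, ← hf, ← Submodule.map_comp]
    rfl
  have hone : ∀ i : Fin p, f 1 i = i := by
    intro i
    apply hinj
    rw [← hf]
    exact Submodule.map_id _
  refine ⟨{ toFun := fun a => ⟨f a, f a⁻¹, fun i => by rw [← hmul, inv_mul_cancel, hone],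
              fun i => by rw [← hmul, mul_inv_cancel, hone]⟩
            map_one' := by ext i; simp [hone]
            map_mul' := fun a b => by ext i; simp [hmul] }, ?_⟩
  intro a i
  exact hf a i

end Cfsg.Agent.Lib.Helper4.QB
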