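import Mathlib
import Cfsg.Agent.Lib.Helper61.QB.Defs
import Cfsg.Agent.Lib.Helper63.QB.X1
import Cfsg.Agent.Lib.Helper63.QB.X3

/-! Farm S4125 (helper61), piece X4c. -/

set_option autoImplicit false

namespace Cfsg.Agent.Lib.Helper4.QB

open Cfsg.Agent.Lib.Helper61.QB

universe u

variable {q p : ℕ} [Fact q.Prime] [Fact p.Prime] {V : Type u} [AddCommGroup V] [Module (ZMod q) V]
  [Finite V]

/-- a group with finitely many homomorphisms with solvable ranges and trivial common kernel is
solvable. -/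
theorem solvable_of_homs {K : Type*} [Group K] {ι : Type*} [Finite ι] {G : ι → Type*}
    [∀ i, Group (G i)] (φ : ∀ i, K →* G i) (hs : ∀ i, Group.IsSolvable (φ i).range)
    (hinj : ∀ k : K, (∀ i, φ i k = 1) → k = 1) : Group.IsSolvable K := by
  choose n hn using fun i => (hs i).solvable
  cases nonempty_fintype ι
  refine ⟨⟨Finset.univ.sup n, ?_⟩⟩
  rw [eq_bot_iff]
  intro k hk
  rw [Subgroup.mem_bot]
  apply hinj
  intro i
  have h1 : (φ i).rangeRestrict k ∈ derivedSeries (φ i).range (Finset.univ.sup n) :=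
    map_derivedSeries_le_derivedSeries _ _ ⟨k, hk, rfl⟩
  have h2 : derivedSeries (φ i).range (Finset.univ.sup n) ≤ derivedSeries (φ i).range (n i) :=
    derivedSeries_antitone _ (Finset.le_sup (Finset.mem_univ i))
  have h3 := h2 h1
  rw [hn i, Subgroup.mem_bot] at h3
  exact congrArg Subtype.val h3

/-- [X4c] -/
theorem solvable_ker_blockHom {A : Subgroup (V ≃ₗ[ZMod q] V)} (hA : Good q p A)
    (ih : IH.{u} q p (Nat.card V + Nat.card A)) (W : Fin p → Submodule (ZMod q) V)
    (hsup : iSup W = ⊤) (hne : ∀ i, W i ≠ ⊤) (θ : A →* Equiv.Perm (Fin p))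
    (hθ : ∀ (a : A) (i : Fin p),
      (W i).map ((a : V ≃ₗ[ZMod q] V) : V →ₗ[ZMod q] V) = W (θ a i)) :
    Group.IsSolvable θ.ker := by
  set K' : Subgroup (V ≃ₗ[ZMod q] V) := θ.ker.map A.subtype with hK'def
  have hN : NormIn K' A := by
    refine ⟨Subgroup.map_subtype_le _, ?_⟩
    rintro a ha _ ⟨k, hk, rfl⟩
    refine ⟨⟨a, ha⟩ * k * ⟨a, ha⟩⁻¹, ?_, rfl⟩
    exact (MonoidHom.normal_ker θ).conj_mem k hk ⟨a, ha⟩
  have hK' : Good q p K' := Cfsg.Agent.Lib.Helper63.QB.good_of_normIn hA hN
  have hinv : ∀ i, ∀ a ∈ K', ∀ w ∈ W i, a w ∈ W i := by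
    rintro i _ ⟨k, hk, rfl⟩ w hw
    have h1 := hθ k i
    rw [MonoidHom.mem_ker.1 hk] at h1
    have h2 : (k : V ≃ₗ[ZMod q] V) w ∈ (W i).map ((k : V ≃ₗ[ZMod q] V) : V →ₗ[ZMod q] V) :=
      ⟨w, hw, rfl⟩
    rw [h1] at h2
    exact h2
  have hsolv : Group.IsSolvable K' := by
    refine solvable_of_homs (fun i => resHom K' (W i) (hinv i)) ?_ ?_
    · intro i
      have hg : Good q p (resHom K' (W i) (hinv i)).range :=
        Cfsg.Agent.Lib.Helper63.QB.good_range_res (W i) (hinv i) hK'.1 (fun w _ => hK'.2 w)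
      refine ih (W i) _ hg ?_
      have h1 : Nat.card (W i) < Nat.card V := by
        obtain ⟨v, hv⟩ : ∃ v : V, v ∉ W i := by
          by_contra hcon
          push Not at hcon
          exact hne i (eq_top_iff.2 fun x _ => hcon x)
        exact Finite.card_subtype_lt hv
      have h2 : Nat.card (resHom K' (W i) (hinv i)).range ≤ Nat.card K' :=
        Nat.card_le_card_of_surjective _ (MonoidHom.rangeRestrict_surjective _)
      have h3 : Nat.card K' ≤ Nat.card A := Subgroup.card_le_of_le hN.1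
      omega
    · intro k hk
      apply Subtype.ext
      ext v
      have hv : v ∈ iSup W := hsup ▸ Submodule.mem_top
      change k.1 v = v
      refine Submodule.iSup_induction W (motive := fun v => k.1 v = v) hv ?_ ?_ ?_
      · intro i x hx
        have h1 := hk i
        have h2 := resHom_apply K' (W i) (hinv i) k ⟨x, hx⟩
        rw [h1] at h2
        exact h2.symm
      · simp
      · intro x y hx hy
        rw [map_add, hx, hy]
  exact Group.isSolvable_of_isSolvable_injective
    (f := (Subgroup.equivMapOfInjective θ.ker A.subtype A.subtype_injective).toMonoidHom)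
    (Subgroup.equivMapOfInjective θ.ker A.subtype A.subtype_injective).injective

end Cfsg.Agent.Lib.Helper4.QB
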