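import Mathlib
import Cfsg.Agent.Lib.Helper61.QB.Defs
import Cfsg.Agent.Lib.Helper4.QB.X4o
import Cfsg.Agent.Lib.Helper96.QB.PERM

/-! Farm S4125 (helper61), piece X4d. -/

set_option autoImplicit false

namespace Cfsg.Agent.Lib.Helper4.QB

open Cfsg.Agent.Lib.Helper61.QB

universe u

variable {q p : ℕ} [Fact q.Prime] [Fact p.Prime] {V : Type u} [AddCommGroup V] [Module (ZMod q) V]
  [Finite V]

omit [Fact p.Prime] [Finite V] in
/-- a vector of `W j` which is a sum of three vectors from other blocks vanishes. -/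
theorem eq_zero_of_indep3 {W : Fin p → Submodule (ZMod q) V} (hind : iSupIndep W)
    {j j1 j2 j3 : Fin p} (h1 : j1 ≠ j) (h2 : j2 ≠ j) (h3 : j3 ≠ j) {x y1 y2 y3 : V} (hx : x ∈ W j)
    (hy1 : y1 ∈ W j1) (hy2 : y2 ∈ W j2) (hy3 : y3 ∈ W j3) (h : x = y1 + y2 + y3) : x = 0 := by
  have hd := hind j
  have e1 : y1 ∈ ⨆ k, ⨆ (_ : k ≠ j), W k := (le_iSup₂_of_le j1 h1 le_rfl : W j1 ≤ _) hy1
  have e2 : y2 ∈ ⨆ k, ⨆ (_ : k ≠ j), W k := (le_iSup₂_of_le j2 h2 le_rfl : W j2 ≤ _) hy2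
  have e3 : y3 ∈ ⨆ k, ⨆ (_ : k ≠ j), W k := (le_iSup₂_of_le j3 h3 le_rfl : W j3 ≤ _) hy3
  have hx' : x ∈ ⨆ k, ⨆ (_ : k ≠ j), W k :=
    h ▸ Submodule.add_mem _ (Submodule.add_mem _ e1 e2) e3
  exact (Submodule.disjoint_def.1 hd) x hx hx'

/-- [X4d] -/
theorem solvable_range_blockHom [Nontrivial V] {A P : Subgroup (V ≃ₗ[ZMod q] V)} (hPA : P ≤ A)
    (hPp : IsPGroup p P) (hs : SameOrb P A) (W : Fin p → Submodule (ZMod q) V)
    (hW : Blocks p P W) (θ : A →* Equiv.Perm (Fin p))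
    (hθ : ∀ (a : A) (i : Fin p),
      (W i).map ((a : V ≃ₗ[ZMod q] V) : V →ₗ[ZMod q] V) = W (θ a i)) :
    Group.IsSolvable θ.range := by
  obtain ⟨hne, hinj⟩ := blocks_ne W hW
  obtain ⟨hsup, hind, hperm, π0, hπ0, σ0, hσ0, hmap0⟩ := hW
  have hU : IsPGroup p ((P.subgroupOf A).map θ) := (hPp.comap_subtype).map θ
  have hc : θ ⟨π0, hPA hπ0⟩ = σ0 := by
    ext i
    congr 1
    apply hinj
    rw [← hθ, ← hmap0]
  refine Cfsg.Agent.Lib.Helper96.QB.perm_solvable_of_pairs θ.range ((P.subgroupOf A).map θ) hU σ0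
    ⟨_, hc⟩ hσ0 ?_
  rintro _ ⟨a, rfl⟩ i j hij
  obtain ⟨wi, hwi, hwi0⟩ := (Submodule.ne_bot_iff _).1 (hne i).1
  obtain ⟨wj, hwj, hwj0⟩ := (Submodule.ne_bot_iff _).1 (hne j).1
  obtain ⟨π, hπ, hv⟩ := hs a.1 a.2 (wi + wj)
  rw [map_add, map_add] at hv
  refine ⟨θ ⟨π, hPA hπ⟩, ⟨⟨π, hPA hπ⟩, by simpa [Subgroup.mem_subgroupOf] using hπ, rfl⟩, ?_⟩
  set t := θ a
  set u := θ ⟨π, hPA hπ⟩ with hu
  have x1 : a.1 wi ∈ W (t i) := by rw [← hθ]; exact ⟨wi, hwi, rfl⟩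
  have x2 : a.1 wj ∈ W (t j) := by rw [← hθ]; exact ⟨wj, hwj, rfl⟩
  have y1 : π wi ∈ W (u i) := by rw [hu, ← hθ]; exact ⟨wi, hwi, rfl⟩
  have y2 : π wj ∈ W (u j) := by rw [hu, ← hθ]; exact ⟨wj, hwj, rfl⟩
  have x10 : a.1 wi ≠ 0 := fun h => hwi0 (by simpa using h)
  have x20 : a.1 wj ≠ 0 := fun h => hwj0 (by simpa using h)
  have htij : t i ≠ t j := fun h => hij (t.injective h)
  have h1 : t i = u i ∨ t i = u j := by
    by_contra hcon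
    push Not at hcon
    exact x10 (eq_zero_of_indep3 hind hcon.1.symm hcon.2.symm htij.symm x1 y1 y2
      (Submodule.neg_mem _ x2) (by rw [← hv]; abel))
  have h2 : t j = u i ∨ t j = u j := by
    by_contra hcon
    push Not at hcon
    exact x20 (eq_zero_of_indep3 hind hcon.1.symm hcon.2.symm htij x2 y1 y2
      (Submodule.neg_mem _ x1) (by rw [← hv]; abel))
  rcases h1 with h1 | h1 <;> rcases h2 with h2 | h2
  · exact absurd (h1.trans h2.symm) htij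
  · rw [h1, h2]
  · rw [h1, h2, Set.pair_comm]
  · exact absurd (h1.trans h2.symm) htij

end Cfsg.Agent.Lib.Helper4.QB
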