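import Mathlib
import Cfsg.Prelude.Def_CaseTheorems
import Cfsg.Agent.Lib.Helper61.QB.Defs

/-! Farm S4125 (helper61), piece X5a. -/

set_option autoImplicit false

namespace Cfsg.Agent.Lib.Helper4.QB

open Cfsg.Agent.Lib.Helper61.QB

/-- the conclusion of X5a. -/
def CycTwo (P : Type*) [Group P] : Prop :=
  ∃ (b s : P) (m k : ℕ), orderOf b = 2 ^ m ∧ s * b * s⁻¹ = b ^ k ∧ k % 4 = 3 ∧
      s * s ∈ Subgroup.zpowers b ∧ ∀ x : P, x ∈ Subgroup.zpowers b ∨ s⁻¹ * x ∈ Subgroup.zpowers b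

theorem CycTwo.of_equiv {P Q : Type*} [Group P] [Group Q] (e : P ≃* Q) (h : CycTwo Q) :
    CycTwo P := by
  obtain ⟨b, s, m, k, h1, h2, h3, h4, h5⟩ := h
  have hz : ∀ y : Q, y ∈ Subgroup.zpowers b → e.symm y ∈ Subgroup.zpowers (e.symm b) := by
    intro y hy
    obtain ⟨n, rfl⟩ := Subgroup.mem_zpowers_iff.1 hy
    exact Subgroup.mem_zpowers_iff.2 ⟨n, by rw [map_zpow]⟩
  refine ⟨e.symm b, e.symm s, m, k, ?_, ?_, h3, ?_, ?_⟩
  · rw [MulEquiv.orderOf_eq, h1]
  · rw [← map_inv, ← map_mul, ← map_mul, h2, map_pow]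
  · rw [← map_mul]
    exact hz _ h4
  · intro x
    rcases h5 (e x) with h | h
    · left
      simpa using hz _ h
    · right
      simpa using hz _ h

/-- the inverting case. -/
theorem CycTwo.of_inverts {P : Type*} [Group P] (hP : IsPGroup 2 P) (b s : P)
    (h2 : s * b * s⁻¹ = b⁻¹) (h4 : s * s ∈ Subgroup.zpowers b)
    (h5 : ∀ x : P, x ∈ Subgroup.zpowers b ∨ s⁻¹ * x ∈ Subgroup.zpowers b) : CycTwo P := by
  obtain ⟨m, hm⟩ := IsPGroup.iff_orderOf.1 hP b
  have hpos : 1 ≤ 2 ^ m := Nat.one_le_two_pow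
  refine ⟨b, s, m, 4 * 2 ^ m - 1, hm, ?_, by omega, h4, h5⟩
  rw [h2]
  apply inv_eq_of_mul_eq_one_left
  rw [← pow_succ]
  have : 4 * 2 ^ m - 1 + 1 = 2 ^ m * 4 := by omega
  rw [this, pow_mul, ← hm, pow_orderOf_eq_one, one_pow]

theorem cycTwo_dihedral (n : ℕ) (hP : IsPGroup 2 (DihedralGroup n)) : CycTwo (DihedralGroup n) := by
  have hr : ∀ i : ZMod n, DihedralGroup.r i ∈ Subgroup.zpowers (DihedralGroup.r 1 : DihedralGroup n) := by
    intro i
    refine Subgroup.mem_zpowers_iff.2 ⟨(ZMod.cast i : ℤ), ?_⟩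
    rw [DihedralGroup.r_one_zpow, ZMod.intCast_zmod_cast]
  refine CycTwo.of_inverts hP (DihedralGroup.r 1) (DihedralGroup.sr 0) ?_ ?_ ?_
  · simp
  · simp [DihedralGroup.sr_mul_self, Subgroup.one_mem]
  · rintro (i | i)
    · exact Or.inl (hr i)
    · right
      rw [DihedralGroup.inv_sr, DihedralGroup.sr_mul_sr]
      exact hr _

theorem cycTwo_quaternion (n : ℕ) (hP : IsPGroup 2 (QuaternionGroup n)) :
    CycTwo (QuaternionGroup n) := by
  have hpow : ∀ k : ℤ, (QuaternionGroup.a 1 : QuaternionGroup n) ^ k = QuaternionGroup.a k := by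
    intro k
    induction k using Int.induction_on with
    | zero => simp
    | succ i ih =>
      rw [zpow_add_one, ih, QuaternionGroup.a_mul_a]
      simp
    | pred i ih =>
      rw [zpow_sub_one, ih]
      apply mul_inv_eq_of_eq_mul
      rw [QuaternionGroup.a_mul_a]
      simp
  have hr : ∀ i : ZMod (2 * n),
      QuaternionGroup.a i ∈ Subgroup.zpowers (QuaternionGroup.a 1 : QuaternionGroup n) := by
    intro i
    refine Subgroup.mem_zpowers_iff.2 ⟨(ZMod.cast i : ℤ), ?_⟩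
    rw [hpow, ZMod.intCast_zmod_cast]
  have hnn : (n : ZMod (2 * n)) + n = 0 := by
    have : ((2 * n : ℕ) : ZMod (2 * n)) = 0 := ZMod.natCast_self _
    rw [← this]
    push_cast
    ring
  have hinv : (QuaternionGroup.xa 0 : QuaternionGroup n)⁻¹ = QuaternionGroup.xa n := by
    apply inv_eq_of_mul_eq_one_left
    rw [QuaternionGroup.xa_mul_xa]
    simp
  refine CycTwo.of_inverts hP (QuaternionGroup.a 1) (QuaternionGroup.xa 0) ?_ ?_ ?_
  · rw [hinv, QuaternionGroup.xa_mul_a, QuaternionGroup.xa_mul_xa]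
    symm
    apply inv_eq_of_mul_eq_one_left
    rw [QuaternionGroup.a_mul_a, ← QuaternionGroup.a_zero]
    congr 1
    linear_combination hnn
  · rw [QuaternionGroup.xa_mul_xa]
    exact hr _
  · rintro (i | i)
    · exact Or.inl (hr i)
    · right
      rw [hinv, QuaternionGroup.xa_mul_xa]
      exact hr _

theorem cycTwo_quasi {P : Type*} [Group P] [Finite P] (h : Cfsg.IsQuasiDihedral P) : CycTwo P := by
  obtain ⟨n, hn, hc, x, y, hx, hy, hxy⟩ := h
  have hpw : 4 ∣ 2 ^ (n - 1) := by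
    obtain ⟨t, rfl⟩ : ∃ t, n = t + 3 := ⟨n - 3, by omega⟩
    exact ⟨2 ^ t, by rw [show t + 3 - 1 = t + 2 by omega, pow_add]; ring⟩
  have hpos : 0 < 2 ^ (n - 1) := by positivity
  have hyy : y * y = 1 := by
    rw [← sq, ← hy, pow_orderOf_eq_one]
  have hidx : (Subgroup.zpowers x).index = 2 := by
    have h1 := (Subgroup.zpowers x).card_mul_index
    rw [Nat.card_zpowers, hx, hc, pow_succ] at h1
    exact Nat.eq_of_mul_eq_mul_left (by positivity) h1
  have hynot : y ∉ Subgroup.zpowers x := by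
    intro hmem
    obtain ⟨t, ht⟩ := Subgroup.mem_zpowers_iff.1 hmem
    have hcomm : y * x = x * y := by
      rw [← ht, ← zpow_add_one, ← zpow_one_add, add_comm]
    have h1 : x ^ (2 ^ (n - 1) - 1) = x := by
      rw [← hxy, hcomm, mul_inv_cancel_right]
    have h2 : x ^ (2 ^ (n - 1) - 2) = 1 := by
      have h3 : x ^ (2 ^ (n - 1) - 2) * x = x := by
        rw [← pow_succ]
        have : 2 ^ (n - 1) - 2 + 1 = 2 ^ (n - 1) - 1 := by
          obtain ⟨c, hc⟩ := hpw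
          omega
        rw [this, h1]
      exact mul_eq_right.1 h3
    have h3 := orderOf_dvd_of_pow_eq_one h2
    rw [hx] at h3
    have h4 : 2 ^ n = 2 * 2 ^ (n - 1) := by
      rw [← pow_succ']
      congr 1
      omega
    have h5 : 0 < 2 ^ (n - 1) - 2 := by
      obtain ⟨c, hc⟩ := hpw
      omega
    have := Nat.le_of_dvd h5 h3
    omega
  refine ⟨x, y, n, 2 ^ (n - 1) - 1, hx, hxy, ?_, ?_, ?_⟩
  · obtain ⟨c, hc⟩ := hpw
    omega
  · rw [hyy]
    exact Subgroup.one_mem _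
  · intro z
    by_cases hz : z ∈ Subgroup.zpowers x
    · exact Or.inl hz
    · right
      rw [Subgroup.mul_mem_iff_of_index_two hidx, Subgroup.inv_mem_iff]
      exact ⟨fun h => absurd h hynot, fun h => absurd h hz⟩

/-- [X5a] -/
theorem exists_cyclic_index_two {P : Type*} [Group P] [Finite P] (hP : IsPGroup 2 P)
    (hcase : (∃ n : ℕ, Nonempty (P ≃* QuaternionGroup n)) ∨
      (∃ n : ℕ, Nonempty (P ≃* DihedralGroup n)) ∨ Cfsg.IsQuasiDihedral P) :
    ∃ (b s : P) (m k : ℕ), orderOf b = 2 ^ m ∧ s * b * s⁻¹ = b ^ k ∧ k % 4 = 3 ∧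
      s * s ∈ Subgroup.zpowers b ∧ ∀ x : P, x ∈ Subgroup.zpowers b ∨ s⁻¹ * x ∈ Subgroup.zpowers b := by
  rcases hcase with ⟨n, ⟨e⟩⟩ | ⟨n, ⟨e⟩⟩ | h
  · exact CycTwo.of_equiv e (cycTwo_quaternion n (hP.of_equiv e))
  · exact CycTwo.of_equiv e (cycTwo_dihedral n (hP.of_equiv e))
  · exact cycTwo_quasi h

end Cfsg.Agent.Lib.Helper4.QB
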