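import Mathlib
import Cfsg.Agent.Lib.Helper61.QB.Defs

/-! Farm S4125 (helper61), piece X5b. -/

set_option autoImplicit false

namespace Cfsg.Agent.Lib.Helper4.QB

open Cfsg.Agent.Lib.Helper61.QB

universe u

variable {q : ℕ} [Fact q.Prime] {V : Type u} [AddCommGroup V] [Module (ZMod q) V]
  [Finite V]

/-- a `b`-invariant subspace is invariant under all powers of `b`. -/
theorem inv_zpowers (b : V ≃ₗ[ZMod q] V) (U : Submodule (ZMod q) V) (hU : ∀ w ∈ U, b w ∈ U)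
    (z : V ≃ₗ[ZMod q] V) (hz : z ∈ Subgroup.zpowers b) : ∀ w ∈ U, z w ∈ U := by
  rw [← mem_powers_iff_mem_zpowers] at hz
  obtain ⟨n, rfl⟩ := hz
  change ∀ w ∈ U, (b ^ n) w ∈ U
  induction n with
  | zero => intro w hw; simpa using hw
  | succ n ih =>
    intro w hw
    rw [pow_succ', LinearEquiv.mul_apply]
    exact hU _ (ih w hw)

omit [Finite V] in
theorem map_eq_of_inv (z : V ≃ₗ[ZMod q] V) (U : Submodule (ZMod q) V) (h1 : ∀ w ∈ U, z w ∈ U)
    (h2 : ∀ w ∈ U, z⁻¹ w ∈ U) : U.map (z : V →ₗ[ZMod q] V) = U := by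
  apply le_antisymm
  · rintro _ ⟨w, hw, rfl⟩
    exact h1 w hw
  · intro w hw
    refine ⟨z⁻¹ w, h2 w hw, ?_⟩
    change z (z⁻¹ w) = w
    rw [← LinearEquiv.mul_apply, mul_inv_cancel]
    rfl

/-- [X5b] -/
theorem blocks_or_irr1 [Nontrivial V] {P : Subgroup (V ≃ₗ[ZMod q] V)} (hirr : Irr P)
    (b s : V ≃ₗ[ZMod q] V) (hb : b ∈ P) (hs : s ∈ P) (hn : s * b * s⁻¹ ∈ Subgroup.zpowers b)
    (hs2 : s * s ∈ Subgroup.zpowers b)
    (hgen : ∀ x ∈ P, x ∈ Subgroup.zpowers b ∨ s⁻¹ * x ∈ Subgroup.zpowers b) :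
    (∃ W : Fin 2 → Submodule (ZMod q) V, Blocks 2 P W) ∨ Irr1 b := by
  by_cases hI : Irr1 b
  · exact Or.inr hI
  left
  unfold Irr1 at hI
  push Not at hI
  obtain ⟨U0, hU0, hU0b, hU0t⟩ := hI
  have hfin : Finite (Submodule (ZMod q) V) :=
    Finite.of_injective (fun U => (U : Set V)) SetLike.coe_injective
  obtain ⟨U, ⟨hUb, hUinv, hUle⟩, hmin⟩ := (wellFounded_lt (α := Submodule (ZMod q) V)).has_min
    {U | U ≠ ⊥ ∧ (∀ w ∈ U, b w ∈ U) ∧ U ≤ U0} ⟨U0, hU0b, hU0, le_rfl⟩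
  have hUt : U ≠ ⊤ := fun h => hU0t (eq_top_iff.2 (h ▸ hUle))
  have hUz := inv_zpowers b U hUinv
  -- `P`-invariance from invariance under `b` and `s`
  have hPinv : ∀ X : Submodule (ZMod q) V, (∀ w ∈ X, b w ∈ X) → (∀ w ∈ X, s w ∈ X) →
      ∀ π ∈ P, ∀ w ∈ X, π w ∈ X := by
    intro X h1 h2 π hπ w hw
    rcases hgen π hπ with h | h
    · exact inv_zpowers b X h1 π h w hw
    · have h3 := h2 _ (inv_zpowers b X h1 _ h w hw)
      rwa [← LinearEquiv.mul_apply, mul_inv_cancel_left] at h3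
  set sU : Submodule (ZMod q) V := U.map (s : V →ₗ[ZMod q] V) with hsU
  have hmem_sU : ∀ w ∈ U, s w ∈ sU := fun w hw => ⟨w, hw, rfl⟩
  have hconj : s⁻¹ * b * s ∈ Subgroup.zpowers b := by
    have : s⁻¹ * b * s = (s * s)⁻¹ * (s * b * s⁻¹) * (s * s) := by group
    rw [this]
    exact Subgroup.mul_mem _ (Subgroup.mul_mem _ (Subgroup.inv_mem _ hs2) hn) hs2
  have hsUinv : ∀ w ∈ sU, b w ∈ sU := by
    rintro _ ⟨w, hw, rfl⟩
    have h1 := hmem_sU _ (hUz _ hconj w hw)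
    rw [← LinearEquiv.mul_apply] at h1
    have h2 : s * (s⁻¹ * b * s) = b * s := by group
    rw [h2] at h1
    exact h1
  have hsUz := inv_zpowers b sU hsUinv
  have hs_sU : ∀ w ∈ sU, s w ∈ U := by
    rintro _ ⟨w, hw, rfl⟩
    exact hUz _ hs2 w hw
  have hsup : U ⊔ sU = ⊤ := by
    have h1 : ∀ π ∈ P, ∀ w ∈ U ⊔ sU, π w ∈ U ⊔ sU := by
      apply hPinv
      · intro w hw
        obtain ⟨x, hx, y, hy, rfl⟩ := Submodule.mem_sup.1 hw
        rw [map_add]
        exact Submodule.add_mem _ (Submodule.mem_sup_left (hUinv x hx))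
          (Submodule.mem_sup_right (hsUinv y hy))
      · intro w hw
        obtain ⟨x, hx, y, hy, rfl⟩ := Submodule.mem_sup.1 hw
        rw [map_add]
        exact Submodule.add_mem _ (Submodule.mem_sup_right (hmem_sU x hx))
          (Submodule.mem_sup_left (hs_sU y hy))
    rcases hirr _ h1 with h | h
    · exact absurd (eq_bot_iff.2 (h ▸ le_sup_left)) hUb
    · exact h
  have hdisj : Disjoint U sU := by
    rw [disjoint_iff]
    by_contra hne
    have h1 : U ⊓ sU ∈ {U | U ≠ ⊥ ∧ (∀ w ∈ U, b w ∈ U) ∧ U ≤ U0} :=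
      ⟨hne, fun w hw => ⟨hUinv w hw.1, hsUinv w hw.2⟩, inf_le_left.trans hUle⟩
    have h2 : ¬ (U ⊓ sU < U) := hmin _ h1
    have h3 : U ⊓ sU = U := by
      by_contra h4
      exact h2 (lt_of_le_of_ne inf_le_left h4)
    have h4 : U ≤ sU := inf_eq_left.1 h3
    -- `U` is invariant under `s`
    have h5 : ∀ w ∈ U, s w ∈ U := by
      intro w hw
      obtain ⟨x, hx, hxw⟩ := h4 (hUz _ hs2 w hw)
      have h6 : s x = s (s w) := hxw
      have h7 : x = s w := s.injective h6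
      rw [← h7]
      exact hx
    rcases hirr U (hPinv U hUinv h5) with h | h
    · exact hUb h
    · exact hUt h
  have hmapz : ∀ z ∈ Subgroup.zpowers b, U.map (z : V →ₗ[ZMod q] V) = U ∧
      sU.map (z : V →ₗ[ZMod q] V) = sU := fun z hz =>
    ⟨map_eq_of_inv z U (hUz z hz) (hUz _ (Subgroup.inv_mem _ hz)),
      map_eq_of_inv z sU (hsUz z hz) (hsUz _ (Subgroup.inv_mem _ hz))⟩
  have hmaps : sU.map (s : V →ₗ[ZMod q] V) = U := by
    rw [hsU, ← Submodule.map_comp]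
    exact (hmapz _ hs2).1
  have hswap : ∀ z ∈ Subgroup.zpowers b, ∀ i : Fin 2,
      ((![U, sU] : Fin 2 → Submodule (ZMod q) V) i).map ((s * z : V ≃ₗ[ZMod q] V) : V →ₗ[ZMod q] V)
        = (![U, sU] : Fin 2 → Submodule (ZMod q) V) (Equiv.swap 0 1 i) := by
    intro z hz i
    have hcomp : ((s * z : V ≃ₗ[ZMod q] V) : V →ₗ[ZMod q] V)
        = (s : V →ₗ[ZMod q] V).comp (z : V →ₗ[ZMod q] V) := rfl
    rw [hcomp, Submodule.map_comp]
    fin_cases i
    · simp only [Fin.zero_eta, Matrix.cons_val_zero, Equiv.swap_apply_left, Matrix.cons_val_one]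
      rw [(hmapz z hz).1]
    · simp only [Fin.mk_one, Matrix.cons_val_one, Equiv.swap_apply_right, Matrix.cons_val_zero]
      rw [(hmapz z hz).2, hmaps]
  refine ⟨![U, sU], ?_, ?_, ?_, ?_⟩
  · rw [eq_top_iff, ← hsup]
    exact sup_le (le_iSup (![U, sU] : Fin 2 → Submodule (ZMod q) V) 0)
      (le_iSup (![U, sU] : Fin 2 → Submodule (ZMod q) V) 1)
  · rw [iSupIndep_pair (i := (0 : Fin 2)) (j := 1) (by decide) (by decide)]
    exact hdisj
  · intro π hπ
    rcases hgen π hπ with h | h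
    · refine ⟨1, fun i => ?_⟩
      fin_cases i
      · exact (hmapz π h).1
      · exact (hmapz π h).2
    · refine ⟨Equiv.swap 0 1, fun i => ?_⟩
      have := hswap _ h i
      rwa [mul_inv_cancel_left] at this
  · refine ⟨s, hs, Equiv.swap 0 1, Equiv.Perm.IsSwap.orderOf ⟨0, 1, by decide, rfl⟩, fun i => ?_⟩
    have := hswap 1 (Subgroup.one_mem _) i
    rwa [mul_one] at this

end Cfsg.Agent.Lib.Helper4.QB
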