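import Mathlib
import Cfsg.Prelude.Def_CaseTheorems
import Cfsg.Agent.Lib.Helper61.QB.Defs
import Cfsg.Agent.S3380

/-! Farm S4125 (helper61), piece X5y. -/

set_option autoImplicit false

namespace Cfsg.Agent.Lib.Helper4.QB

open Cfsg.Agent.Lib.Helper61.QB

universe u

variable {q p : ℕ} [Fact q.Prime] [Fact p.Prime] {V : Type u} [AddCommGroup V] [Module (ZMod q) V]
  [Finite V]

/-- [X5y] -/
theorem blocks_of_S3380 [Nontrivial V] {P : Subgroup (V ≃ₗ[ZMod q] V)} (hP : IsPGroup p P)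
    (hirr : Irr P) (hnc : ¬ IsCyclic P) (hnq : ∀ n : ℕ, ¬ Nonempty (P ≃* QuaternionGroup n))
    (hnd : ∀ n : ℕ, ¬ Nonempty (P ≃* DihedralGroup n)) (hnsd : ¬ Cfsg.IsQuasiDihedral P) :
    ∃ W : Fin p → Submodule (ZMod q) V, Blocks p P W := by
  have hp : p.Prime := Fact.out
  obtain ⟨H, W, hidx, hsup, hind, hH, -, hg⟩ := Cfsg.Agent.S3380.result q p hP P.subtype
    P.subtype_injective (fun W hW => hirr W (fun π hπ w hw => hW ⟨π, hπ⟩ w hw)) hnc hnq hnd hnsd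
  refine ⟨W, hsup, hind, ?_, ?_⟩
  · intro π hπ
    by_cases h : (⟨π, hπ⟩ : P) ∈ H
    · refine ⟨1, fun i => ?_⟩
      apply le_antisymm
      · rintro _ ⟨w, hw, rfl⟩
        exact hH _ h i w hw
      · intro w hw
        refine ⟨π⁻¹ w, hH _ (H.inv_mem h) i w hw, ?_⟩
        change π (π⁻¹ w) = w
        rw [← LinearEquiv.mul_apply, mul_inv_cancel]; rfl
    · obtain ⟨σ, -, hσ⟩ := hg _ h
      exact ⟨σ, hσ⟩
  · have hne : H ≠ ⊤ := by
      intro h
      rw [h, Subgroup.index_top] at hidx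
      exact hp.one_lt.ne hidx
    obtain ⟨g, hg'⟩ : ∃ g : P, g ∉ H := by
      by_contra hcon
      push Not at hcon
      exact hne (eq_top_iff.2 fun x _ => hcon x)
    obtain ⟨σ, h1, hσ⟩ := hg g hg'
    exact ⟨g.1, g.2, σ, h1, hσ⟩

end Cfsg.Agent.Lib.Helper4.QB
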