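import Mathlib
import Cfsg.Prelude.Def_CaseTheorems
import Cfsg.Agent.Lib.Helper61.QB.Defs

/-! Farm S4125 (helper61), piece X5z. -/

set_option autoImplicit false

namespace Cfsg.Agent.Lib.Helper4.QB

open Cfsg.Agent.Lib.Helper61.QB

universe u

variable {q p : ℕ} [Fact q.Prime] [Fact p.Prime] {V : Type u} [AddCommGroup V] [Module (ZMod q) V]
  [Finite V]

/-- [X5z] -/
theorem eq_two_of_case {P : Type*} [Group P] [Finite P] (hP : IsPGroup p P)
    (hcase : (∃ n : ℕ, Nonempty (P ≃* QuaternionGroup n)) ∨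
      (∃ n : ℕ, Nonempty (P ≃* DihedralGroup n)) ∨ Cfsg.IsQuasiDihedral P) : p = 2 := by
  have hp : p.Prime := Fact.out
  obtain ⟨k, hk⟩ := IsPGroup.iff_card.1 hP
  have h2 : 2 ∣ Nat.card P := by
    rcases hcase with ⟨n, ⟨e⟩⟩ | ⟨n, ⟨e⟩⟩ | ⟨n, hn, hc, -⟩
    · rw [Nat.card_congr e.toEquiv]
      have h := orderOf_dvd_natCard (QuaternionGroup.a 1 : QuaternionGroup n)
      rw [QuaternionGroup.orderOf_a_one] at h
      exact (Dvd.intro n rfl).trans h
    · rw [Nat.card_congr e.toEquiv, DihedralGroup.nat_card]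
      exact ⟨n, rfl⟩
    · rw [hc]
      exact dvd_pow_self 2 (by omega)
  rw [hk] at h2
  have h3 : 2 ∣ p := Nat.Prime.dvd_of_dvd_pow Nat.prime_two h2
  exact ((Nat.prime_dvd_prime_iff_eq Nat.prime_two hp).1 h3).symm

end Cfsg.Agent.Lib.Helper4.QB
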